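import Cfsg.Agent.E8PSLThree56.Data

/-! The profiles of the points of the twisted torus. -/

set_option autoImplicit false
set_option maxRecDepth 100000

namespace CfsgLib.E8PSLThree56

theorem tally_mem : (((0, 1) :: (List.range 73).map fun v => (1, v)).all fun q =>
    (List.range 72).all fun μ => targets73.elem (scaledCounts (tally q.1 q.2) (μ + 1))) = true := by
  decide +kernel

theorem pairs_eq : ((List.range 240).map fun r => (rexp1.getD r 0, rexp2.getD r 0)) =
    rexp1.zip rexp2 := by decide +kernel

theorem certs_cover : (targets73.all fun t => ([112, 128] : List ℕ).all fun mn =>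
    certs6.any fun p => p.1 == (((248 - mn : ℕ) : ℤ) :: (mn : ℤ) :: t.map fun (x : ℕ) => (x : ℤ))) = true := by
  decide +kernel

theorem certs_ok : (certs6.all fun p => chkTree 9 cols6 p.2 (List.range orbs6.length) p.1) = true := by
  decide +kernel

theorem cols6_nonneg : (cols6.all fun c => c.all fun x => decide (0 ≤ x)) = true := by decide +kernel

theorem orbs6_nodup : (orbs6.flatMap Prod.snd).Nodup := by decide +kernel

theorem orbs6_eq : ∀ p ∈ orbs6, p.2 =
    (List.range p.2.length).map fun i => SLTwoDef56.lam (SLTwoDef56.shift^[i] (labOf 6 p.1)) := by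
  decide +kernel

theorem cover6 : ((List.range 729).all fun x =>
    ((digitsL 6 x).sum % 2 == 1) || decide (248 < ((digitsL 6 x).map fun d => d + 1).prod) ||
      (orbs6.flatMap Prod.snd).elem x) = true := by decide +kernel

theorem cols6_eq : cols6 = orbs6.map fun p => (List.range 9).map fun i =>
    (((p.2.map fun x => rowCount i (digitsL 6 x)).sum : ℕ) : ℤ) := by decide +kernel

theorem orbs5_nodup : (orbs5.flatMap Prod.snd).Nodup := by decide +kernel

theorem orbs5_eq : ∀ p ∈ orbs5, p.2 =
    (List.range p.2.length).map fun i => SLTwoDef56.lam (SLTwoDef56.shift^[i] (labOf 5 p.1)) := by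
  decide +kernel

theorem cover5 : ((List.range 243).all fun x =>
    ((digitsL 5 x).sum % 2 == 1) || decide (248 < ((digitsL 5 x).map fun d => d + 1).prod) ||
      (orbs5.flatMap Prod.snd).elem x) = true := by decide +kernel

theorem five_dvd : (orbs5.all fun p => p.1 == 242 ||
    ((p.2.map fun x => resCount 4 2 (digitsL 5 x)).sum % 5 == 0)) = true := by decide +kernel

theorem top_counts : (orbs5.all fun p => !(p.1 == 242) ||
    ((p.2.map fun x => resCount 4 2 (digitsL 5 x)).sum == 122 &&
      (p.2.map fun x => ((digitsL 5 x).map fun d => d + 1).prod).sum == 243)) = true := by decide +kernel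

theorem minus_le_dim : (orbs5.all fun p => decide ((p.2.map fun x => resCount 4 2 (digitsL 5 x)).sum ≤
    (p.2.map fun x => ((digitsL 5 x).map fun d => d + 1).prod).sum)) = true := by decide +kernel

end CfsgLib.E8PSLThree56
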