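import Cfsg.Agent.SLTwoDef56.Main

/-!
Counting the monomials of a label by lists, orbits of labels under the shift, and certificates that a vector is not
a sum of columns with multiplicities.
-/

set_option autoImplicit false
set_option linter.unusedSectionVars false

namespace CfsgLib.E8PSLThree56

open CfsgLib.SLTwoDef56

/-- The pairs of exponents of the monomials of a list of digits. -/
def expList : List ℕ → List (ℕ × ℕ)
  | [] => [(0, 0)]
  | x :: as =>
    (List.range (x + 1)).flatMap fun k => (expList as).map fun p => (k + 3 * p.1, (x - k) + 3 * p.2)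

theorem eExp_cons {n : ℕ} {a : Fin (n + 1) → Fin 3} (k : Idx a) :
    eExp k = (k 0 : ℕ) + 3 * eExp (a := fun i : Fin n => a i.succ) fun i => k i.succ := by
  rw [eExp, eExp, Fin.sum_univ_succ, Fin.val_zero, pow_zero, mul_one, Finset.mul_sum]
  congr 1
  refine Finset.sum_congr rfl fun i _ => ?_
  rw [Fin.val_succ, pow_succ]
  ring

theorem dExp_cons {n : ℕ} {a : Fin (n + 1) → Fin 3} (k : Idx a) :
    dExp k = ((a 0 : ℕ) - (k 0 : ℕ)) + 3 * dExp (a := fun i : Fin n => a i.succ) fun i => k i.succ := by
  rw [dExp, dExp, Fin.sum_univ_succ, Fin.val_zero, pow_zero, mul_one, Finset.mul_sum]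
  congr 1
  refine Finset.sum_congr rfl fun i _ => ?_
  rw [Fin.val_succ, pow_succ]
  ring

theorem expList_sum : ∀ {n : ℕ} (a : Fin n → Fin 3) (f : ℕ → ℕ → ℕ),
    ((expList (List.ofFn fun i => (a i : ℕ))).map fun p => f p.1 p.2).sum =
      ∑ k : Idx a, f (eExp k) (dExp k)
  | 0, a, f => by simp [expList, eExp, dExp]
  | n + 1, a, f => by
    rw [List.ofFn_succ, expList]
    rw [← (Fin.consEquiv fun i : Fin (n + 1) => Fin ((a i : ℕ) + 1)).sum_comp,
      Fintype.sum_prod_type, List.map_flatMap, List.flatMap_def, List.sum_flatten, List.map_map]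
    rw [Finset.sum_fin_eq_sum_range, ← List.sum_toFinset _ List.nodup_range, List.toFinset_range]
    refine Finset.sum_congr rfl fun x hx => ?_
    rw [dif_pos (Finset.mem_range.mp hx), Function.comp_apply, List.map_map]
    refine (expList_sum (fun i => a i.succ)
      (fun e d => f (x + 3 * e) (((a 0 : ℕ) - x) + 3 * d))).trans ?_
    refine Finset.sum_congr rfl fun k _ => ?_
    rw [eExp_cons, dExp_cons]
    simp [Fin.consEquiv]

/-- The number of monomials with exponent in a residue class. -/
def resCount (N j : ℕ) (a : List ℕ) : ℕ :=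
  ((expList a).map fun p => if (p.1 + (N - 1) * p.2) % N = j then 1 else 0).sum

theorem eigCount_eq {K : Type*} [Field K] {n : ℕ} (a : Fin n → Fin 3) {μ : K} {N j : ℕ}
    (hμ : IsPrimitiveRoot μ N) (hN : 0 < N) (hj : j < N) :
    eigCount μ a (μ ^ j) = resCount N j (List.ofFn fun i => (a i : ℕ)) := by
  classical
  rw [resCount, expList_sum a (fun e d => if (e + (N - 1) * d) % N = j then 1 else 0), eigCount,
    Finset.card_filter]
  refine Finset.sum_congr rfl fun k _ => ?_
  have hinv : μ⁻¹ = μ ^ (N - 1) := by
    refine inv_eq_of_mul_eq_one_left ?_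
    rw [← pow_succ, Nat.sub_add_cancel hN, hμ.pow_eq_one]
  refine if_congr ?_ rfl rfl
  rw [eigVal, hinv, ← pow_mul, ← pow_add, ← pow_mod_orderOf, ← hμ.eq_orderOf]
  constructor
  · exact hμ.pow_inj (Nat.mod_lt _ hN) hj
  · exact fun h => by rw [h]

/-- The label of a number. -/
def labOf (n x : ℕ) : Fin n → Fin 3 := fun i => ⟨x / 3 ^ (i : ℕ) % 3, Nat.mod_lt _ (by norm_num)⟩

theorem labOf_lam {n : ℕ} (a : Fin n → Fin 3) : labOf n (lam a) = a := by
  have h := finFunctionFinEquiv.symm_apply_apply a
  funext i
  apply Fin.ext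
  have hi := congrArg (fun f : Fin n → Fin 3 => ((f i : Fin 3) : ℕ)) h
  simp only [finFunctionFinEquiv_symm_apply_val] at hi
  rw [finFunctionFinEquiv_apply] at hi
  exact hi

/-- Multiplicities constant on orbits turn a sum over labels into one over the orbits. -/
theorem sum_orbits {n : ℕ} (m : (Fin n → Fin 3) → ℕ) (hs : ∀ a, m (shift a) = m a)
    (orbs : List (ℕ × List ℕ)) (hnd : (orbs.flatMap Prod.snd).Nodup)
    (horb : ∀ p ∈ orbs, p.2 = (List.range p.2.length).map fun i => lam (shift^[i] (labOf n p.1)))
    (hsupp : ∀ a, m a ≠ 0 → lam a ∈ orbs.flatMap Prod.snd) (f : (Fin n → Fin 3) → ℕ) :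
    ∑ a, m a * f a =
      (orbs.map fun p => m (labOf n p.1) * (p.2.map fun x => f (labOf n x)).sum).sum := by
  classical
  have hit : ∀ i a, m (shift^[i] a) = m a := by
    intro i
    induction i with
    | zero => intro a; rfl
    | succ i ih => intro a; rw [Function.iterate_succ_apply', hs, ih]
  set L := (orbs.flatMap Prod.snd).map (labOf n) with hL
  have hinj : ∀ x ∈ orbs.flatMap Prod.snd, ∀ y ∈ orbs.flatMap Prod.snd,
      labOf n x = labOf n y → x = y := by
    intro x hx y hy e
    obtain ⟨p, hp, hxp⟩ := List.mem_flatMap.mp hx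
    obtain ⟨q, hq, hyq⟩ := List.mem_flatMap.mp hy
    rw [horb p hp] at hxp
    rw [horb q hq] at hyq
    obtain ⟨i, -, rfl⟩ := List.mem_map.mp hxp
    obtain ⟨j, -, rfl⟩ := List.mem_map.mp hyq
    rw [labOf_lam, labOf_lam] at e
    rw [e]
  have hLnd : L.Nodup := List.Nodup.map_on hinj hnd
  rw [← Finset.sum_subset (s₁ := L.toFinset) (Finset.subset_univ _) fun a _ ha => ?_,
    List.sum_toFinset _ hLnd, hL, List.map_map, List.map_flatMap, List.flatMap_def, List.sum_flatten, List.map_map]
  · refine congrArg List.sum (List.map_congr_left fun p hp => ?_)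
    rw [← List.sum_map_mul_left]
    refine congrArg List.sum (List.map_congr_left fun x hx => ?_)
    rw [horb p hp] at hx
    obtain ⟨i, -, rfl⟩ := List.mem_map.mp hx
    simp only [Function.comp_apply]
    rw [labOf_lam, hit]
  · by_contra hne
    refine ha (List.mem_toFinset.mpr (List.mem_map.mpr ⟨lam a, hsupp a ?_, labOf_lam a⟩))
    exact fun h0 => hne (by rw [h0, zero_mul])

/-- A certificate: a tree, the children of a node written as a chain. -/
inductive Tree where
  /-- a leaf with a separating functional -/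
  | farkas (y : List ℤ)
  /-- a node branching on the multiplicity of a column -/
  | branch (j : ℕ) (cs : Tree)
  /-- a child and the further children -/
  | cons (t ts : Tree)
  /-- no further children -/
  | nil

/-- The number of children in a chain. -/
def Tree.kids : Tree → ℕ
  | .cons _ ts => ts.kids + 1
  | _ => 0

/-- The scalar product. -/
def dot (w : ℕ) (y v : List ℤ) : ℤ := ((List.range w).map fun i => y.getD i 0 * v.getD i 0).sum

mutual

/-- Check of a certificate. -/
def chkTree (w : ℕ) (col : List (List ℤ)) : Tree → List ℕ → List ℤ → Bool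
  | .farkas y, live, rem =>
    decide (dot w y rem < 0) && live.all fun j => decide (0 ≤ dot w y (col.getD j []))
  | .branch j cs, live, rem =>
    live.elem j && (List.range w).any (fun i => decide
      (rem.getD i 0 < (cs.kids : ℤ) * (col.getD j []).getD i 0)) &&
      chkTrees w col cs (live.erase j) rem (col.getD j [])
  | _, _, _ => false

/-- Check of the children of a node. -/
def chkTrees (w : ℕ) (col : List (List ℤ)) : Tree → List ℕ → List ℤ → List ℤ → Bool
  | .cons t ts, live, rem, c =>
    chkTree w col t live rem &&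
      chkTrees w col ts live ((List.range w).map fun i => rem.getD i 0 - c.getD i 0) c
  | .nil, _, _, _ => true
  | _, _, _, _ => false

end

theorem getD_mapRange {w i : ℕ} (hi : i < w) (f : ℕ → ℤ) :
    ((List.range w).map f).getD i 0 = f i := by
  rw [List.getD_eq_getElem?_getD, List.getElem?_map, List.getElem?_range hi]
  rfl

theorem dot_eq (w : ℕ) (y v : List ℤ) :
    dot w y v = ∑ i ∈ Finset.range w, y.getD i 0 * v.getD i 0 := by
  rw [dot, ← List.sum_toFinset _ List.nodup_range, List.toFinset_range]

mutual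

theorem chkTree_sound (w : ℕ) (col : List (List ℤ))
    (hcol : ∀ j i, 0 ≤ (col.getD j []).getD i 0) :
    ∀ (t : Tree) (live : List ℕ) (rem : List ℤ), chkTree w col t live rem = true → live.Nodup →
      ∀ M : ℕ → ℕ, (∀ i < w, rem.getD i 0 =
        ∑ j ∈ live.toFinset, (M j : ℤ) * (col.getD j []).getD i 0) → False
  | .farkas y, live, rem, h, _, M, hM => by
    simp only [chkTree, Bool.and_eq_true, decide_eq_true_eq, List.all_eq_true] at h
    have e : dot w y rem = ∑ j ∈ live.toFinset, (M j : ℤ) * dot w y (col.getD j []) := by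
      simp only [dot_eq, Finset.mul_sum]
      rw [Finset.sum_comm]
      refine Finset.sum_congr rfl fun i hi => ?_
      rw [hM i (Finset.mem_range.mp hi), Finset.mul_sum]
      exact Finset.sum_congr rfl fun j _ => by ring
    have : 0 ≤ dot w y rem := e ▸ Finset.sum_nonneg fun j hj =>
      mul_nonneg (Int.natCast_nonneg _) (h.2 j (List.mem_toFinset.mp hj))
    omega
  | .branch j cs, live, rem, h, hnd, M, hM => by
    simp only [chkTree, Bool.and_eq_true, decide_eq_true_eq, List.any_eq_true, List.mem_range,
      List.elem_iff] at h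
    obtain ⟨⟨hj, i, hi, hlt⟩, hcs⟩ := h
    have hsplit : ∀ i < w, rem.getD i 0 = (M j : ℤ) * (col.getD j []).getD i 0 +
        ∑ k ∈ (live.erase j).toFinset, (M k : ℤ) * (col.getD k []).getD i 0 := fun i hi => by
      rw [hM i hi, ← Finset.add_sum_erase _ _ (List.mem_toFinset.mpr hj)]
      congr 1
      refine Finset.sum_congr ?_ fun _ _ => rfl
      ext k
      simp [hnd.mem_erase_iff]
    refine chkTrees_sound w col hcol cs _ rem _ hcs (hnd.erase j) M (M j) ?_ hsplit
    have h2 := hsplit i hi
    have h3 : 0 ≤ ∑ k ∈ (live.erase j).toFinset, (M k : ℤ) * (col.getD k []).getD i 0 :=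
      Finset.sum_nonneg fun k _ => mul_nonneg (Int.natCast_nonneg _) (hcol k i)
    have h4 := hcol j i
    by_contra hge
    have h5 : (cs.kids : ℤ) * (col.getD j []).getD i 0 ≤ (M j : ℤ) * (col.getD j []).getD i 0 :=
      mul_le_mul_of_nonneg_right (by exact_mod_cast Nat.le_of_not_lt hge) h4
    omega
  | .cons _ _, _, _, h, _, _, _ => by simp [chkTree] at h
  | .nil, _, _, h, _, _, _ => by simp [chkTree] at h

theorem chkTrees_sound (w : ℕ) (col : List (List ℤ))
    (hcol : ∀ j i, 0 ≤ (col.getD j []).getD i 0) :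
    ∀ (ts : Tree) (live : List ℕ) (rem c : List ℤ), chkTrees w col ts live rem c = true →
      live.Nodup → ∀ (M : ℕ → ℕ) (v : ℕ), v < ts.kids → (∀ i < w, rem.getD i 0 =
        (v : ℤ) * c.getD i 0 + ∑ k ∈ live.toFinset, (M k : ℤ) * (col.getD k []).getD i 0) → False
  | .nil, _, _, _, _, _, _, v, hv, _ => absurd hv (Nat.not_lt_zero v)
  | .farkas _, _, _, _, _, _, _, v, hv, _ => absurd hv (Nat.not_lt_zero v)
  | .branch _ _, _, _, _, _, _, _, v, hv, _ => absurd hv (Nat.not_lt_zero v)
  | .cons t ts, live, rem, c, h, hnd, M, v, hv, hM => by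
    simp only [chkTrees, Bool.and_eq_true] at h
    match v with
    | 0 => exact chkTree_sound w col hcol t live rem h.1 hnd M fun i hi => by simpa using hM i hi
    | v + 1 =>
      refine chkTrees_sound w col hcol ts live _ c h.2 hnd M v (by simpa [Tree.kids] using hv) fun i hi => ?_
      rw [getD_mapRange hi, hM i hi]
      push_cast
      ring

end

end CfsgLib.E8PSLThree56
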