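import Cfsg.Agent.E8PSLThree56.Counting

/-!
Elements of `SL(2, 3 ^ n)` with known eigenvalues, and sums over orbits of labels.
-/

set_option autoImplicit false

namespace CfsgLib.E8PSLThree56

open CfsgLib.SLTwoDef56 Module
open scoped MatrixGroups

variable {F : Type*} [Field F] [Fintype F] {K : Type*} [Field K] [CharP K 3] (ι : F →+* K)

/-- An element of order four and its eigenvectors. -/
theorem exists_quarter [IsAlgClosed K] : ∃ (μ : K) (l l' : K × K), IsPrimitiveRoot μ 4 ∧
    EigData ι (wMat : SL(2, F)) μ l ∧ EigData ι (wMat : SL(2, F)) μ⁻¹ l' ∧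
      l.1 * l'.2 - l.2 * l'.1 ≠ 0 := by
  obtain ⟨i, hi⟩ := IsAlgClosed.exists_pow_nat_eq (-1 : K) (show 0 < 2 by norm_num)
  have h2 : (2 : K) ≠ 0 := fun h => by
    have h' : ((2 : ℕ) : K) = 0 := by push_cast; exact h
    rw [CharP.cast_eq_zero_iff K 3] at h'
    norm_num at h'
  have hi0 : i ≠ 0 := fun h => by rw [h] at hi; simp at hi
  have hinv : i⁻¹ = -i := by
    refine inv_eq_of_mul_eq_one_right ?_
    linear_combination -hi
  refine ⟨i, (1, i), (1, -i), ?_, ?_, ?_, ?_⟩
  · refine IsPrimitiveRoot.mk_of_lt i (by norm_num) (by linear_combination (i ^ 2 - 1) * hi) fun l hl hl4 h => ?_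
    interval_cases l
    · rw [pow_one] at h
      rw [h] at hi
      exact h2 (by linear_combination hi)
    · exact h2 (by linear_combination h.symm.trans hi)
    · refine h2 ?_
      have h4 : i = -1 := by linear_combination i * hi - h
      rw [h4] at hi
      linear_combination hi
  · constructor <;> simp [wMat, ← sq, hi]
  · rw [hinv]
    constructor <;> simp [wMat, ← sq, hi]
  · intro h
    have h' : (2 : K) * i = 0 := by simp only at h; linear_combination -h
    exact hi0 ((mul_eq_zero.mp h').resolve_left h2)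

theorem wMat_pow : (wMat : SL(2, F)) ^ 2 = -1 := by
  apply Subtype.ext
  rw [sq, Matrix.SpecialLinearGroup.coe_mul]
  simp [wMat, Matrix.mul_fin_two, Matrix.one_fin_two]

/-- An element of order seventy-three. -/
theorem exists_order73 (hF : Fintype.card F = 729) : ∃ g : SL(2, F), orderOf g = 73 := by
  classical
  haveI : Fact (Nat.Prime 73) := ⟨by norm_num⟩
  have hc : 73 ∣ Nat.card (GL (Fin 2) F) := by
    rw [Matrix.card_GL_field, Fin.prod_univ_two, hF]
    norm_num
  obtain ⟨h, hh⟩ := exists_prime_orderOf_dvd_card' 73 hc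
  have hd : Matrix.GeneralLinearGroup.det h = 1 := by
    rw [← orderOf_eq_one_iff]
    have h1 : orderOf (Matrix.GeneralLinearGroup.det h) ∣ 73 := hh ▸ orderOf_map_dvd _ h
    have h2 : orderOf (Matrix.GeneralLinearGroup.det h) ∣ 728 := by
      refine (orderOf_dvd_natCard _).trans ?_
      rw [Nat.card_units, Nat.card_eq_fintype_card, hF]
    have := Nat.dvd_gcd h1 h2
    norm_num at this
    exact Nat.dvd_one.mp (by simpa using this)
  obtain ⟨g, hgv⟩ : ∃ g : SL(2, F), (g : Matrix (Fin 2) (Fin 2) F) = h :=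
    ⟨⟨(h : Matrix (Fin 2) (Fin 2) F), by
      have := congrArg Units.val hd
      simpa using this⟩, rfl⟩
  refine ⟨g, ?_⟩
  rw [← hh, ← orderOf_injective Matrix.SpecialLinearGroup.toGL
    Matrix.SpecialLinearGroup.toGL_injective]
  congr 1
  exact Units.ext hgv

/-- The eigenvectors of an element of order seventy-three. -/
theorem exists_eig73 [IsAlgClosed K] {g : SL(2, F)} (hg : orderOf g = 73) :
    ∃ (μ : K) (l l' : K × K), IsPrimitiveRoot μ 73 ∧ EigData ι g μ l ∧ EigData ι g μ⁻¹ l' ∧
      l.1 * l'.2 - l.2 * l'.1 ≠ 0 := by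
  haveI : Fact (Nat.Prime 73) := ⟨by norm_num⟩
  set a := ι (g 0 0) with ha
  set b := ι (g 0 1) with hb
  set c := ι (g 1 0) with hc
  set d := ι (g 1 1) with hd
  have hdet : a * d - b * c = 1 := by
    rw [ha, hb, hc, hd, ← map_mul, ← map_mul, ← map_sub, ← Matrix.det_fin_two
      (g : Matrix (Fin 2) (Fin 2) F), g.2, map_one]
  obtain ⟨μ, hμ⟩ : ∃ μ : K, μ ^ 2 - (a + d) * μ + 1 = 0 := by
    have hdeg : (Polynomial.C (1 : K) * Polynomial.X ^ 2 + Polynomial.C (-(a + d)) * Polynomial.X +
        Polynomial.C 1).degree ≠ 0 := by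
      rw [Polynomial.degree_quadratic one_ne_zero]; decide
    obtain ⟨μ, hμ⟩ := IsAlgClosed.exists_root _ hdeg
    refine ⟨μ, ?_⟩
    simp only [Polynomial.IsRoot, Polynomial.eval_add, Polynomial.eval_mul, Polynomial.eval_pow,
      Polynomial.eval_C, Polynomial.eval_X] at hμ
    linear_combination hμ
  have hμ0 : μ ≠ 0 := fun h => by rw [h] at hμ; simp at hμ
  have hμ' : μ⁻¹ ^ 2 - (a + d) * μ⁻¹ + 1 = 0 := by
    field_simp
    linear_combination hμ
  have hg1 : g ≠ 1 := fun h => by rw [h, orderOf_one] at hg; norm_num at hg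
  have hg73 : g ^ 73 = 1 := hg ▸ pow_orderOf_eq_one g
  have hvec : ∀ ν : K, ν ^ 2 - (a + d) * ν + 1 = 0 → ∀ l : K × K, EigData ι g ν l → l ≠ 0 →
      ν ^ 73 = 1 := by
    intro ν _ l hl hl0
    have hiter : ∀ k : ℕ, EigData ι (g ^ k) (ν ^ k) l := by
      intro k
      induction k with
      | zero => constructor <;> simp
      | succ k ih =>
        rw [pow_succ g k, EigData, Matrix.SpecialLinearGroup.coe_mul]
        simp only [Matrix.mul_apply, Fin.sum_univ_two, map_add, map_mul, pow_succ]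
        constructor
        · linear_combination ι ((g ^ k : SL(2, F)) 0 0) * hl.1 + ι ((g ^ k : SL(2, F)) 0 1) * hl.2 +
            ν * ih.1
        · linear_combination ι ((g ^ k : SL(2, F)) 1 0) * hl.1 + ι ((g ^ k : SL(2, F)) 1 1) * hl.2 +
            ν * ih.2
    have h := hiter 73
    rw [hg73] at h
    obtain ⟨h1, h2⟩ := h
    simp only [Matrix.SpecialLinearGroup.coe_one, Matrix.one_apply_eq,
      Matrix.one_apply_ne (show (0 : Fin 2) ≠ 1 by decide),
      Matrix.one_apply_ne (show (1 : Fin 2) ≠ 0 by decide), map_one, map_zero, one_mul, zero_mul,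
      add_zero, zero_add] at h1 h2
    by_contra hne
    refine hl0 (Prod.ext ?_ ?_)
    · exact (mul_eq_zero.mp (show (ν ^ 73 - 1) * l.1 = 0 by linear_combination -h1)).resolve_left
        (sub_ne_zero.mpr hne)
    · exact (mul_eq_zero.mp (show (ν ^ 73 - 1) * l.2 = 0 by linear_combination -h2)).resolve_left
        (sub_ne_zero.mpr hne)
  obtain ⟨l, l', hl, hl', hl0, hll⟩ : ∃ l l' : K × K, EigData ι g μ l ∧ EigData ι g μ⁻¹ l' ∧
      l ≠ 0 ∧ (μ ≠ μ⁻¹ → l.1 * l'.2 - l.2 * l'.1 ≠ 0) := by
    simp only [EigData, ← ha, ← hb, ← hc, ← hd]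
    by_cases hb0 : b = 0
    · by_cases hc0 : c = 0
      · rcases mul_eq_zero.mp (show (μ - a) * (μ - d) = 0 by linear_combination hμ + hdet + c * hb0)
          with h | h
        · have h1 : μ = a := sub_eq_zero.mp h
          have h2 : μ⁻¹ = d := inv_eq_of_mul_eq_one_right (by rw [h1]; linear_combination hdet + c * hb0)
          exact ⟨(1, 0), (0, 1), by simp [h1, hb0, hc0], by simp [h2, hb0, hc0], by simp,
            fun _ => by simp⟩
        · have h1 : μ = d := sub_eq_zero.mp h
          have h2 : μ⁻¹ = a := inv_eq_of_mul_eq_one_right (by rw [h1]; linear_combination hdet + c * hb0)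
          exact ⟨(0, 1), (1, 0), by simp [h1, hb0, hc0], by simp [h2, hb0, hc0], by simp,
            fun _ => by simp⟩
      · refine ⟨(μ - d, c), (μ⁻¹ - d, c), ⟨?_, by ring⟩, ⟨?_, by ring⟩, by simp [hc0], fun hne => ?_⟩
        · linear_combination -hμ - hdet
        · linear_combination -hμ' - hdet
        · intro h
          exact hne (sub_eq_zero.mp ((mul_eq_zero.mp
            (show c * (μ - μ⁻¹) = 0 by simp only at h; linear_combination h)).resolve_left hc0))
    · refine ⟨(b, μ - a), (b, μ⁻¹ - a), ⟨by ring, ?_⟩, ⟨by ring, ?_⟩, by simp [hb0], fun hne => ?_⟩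
      · linear_combination -hμ - hdet
      · linear_combination -hμ' - hdet
      · intro h
        exact hne (sub_eq_zero.mp ((mul_eq_zero.mp
          (show b * (μ - μ⁻¹) = 0 by simp only at h; linear_combination -h)).resolve_left hb0))
  have h73 := hvec μ hμ l hl hl0
  have hμ1 : μ ≠ 1 := fun h1 => by
    rw [h1] at hμ
    haveI : CharP F 3 := RingHom.charP ι ι.injective 3
    have h3 : (3 : F) = 0 := by exact_mod_cast CharP.cast_eq_zero F 3
    have ht : g 0 0 + g 1 1 = 2 := ι.injective (by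
      rw [map_add, map_ofNat, ← ha, ← hd]
      linear_combination -hμ)
    have hdF : g 0 0 * g 1 1 - g 0 1 * g 1 0 = 1 := by
      rw [← Matrix.det_fin_two (g : Matrix (Fin 2) (Fin 2) F)]; exact g.2
    have h00 : g 0 0 * g 0 0 + g 0 1 * g 1 0 = 2 * g 0 0 - 1 := by
      linear_combination g 0 0 * ht - hdF
    have h01 : g 0 0 * g 0 1 + g 0 1 * g 1 1 = 2 * g 0 1 := by linear_combination g 0 1 * ht
    have h10 : g 1 0 * g 0 0 + g 1 1 * g 1 0 = 2 * g 1 0 := by linear_combination g 1 0 * ht
    have h11 : g 1 0 * g 0 1 + g 1 1 * g 1 1 = 2 * g 1 1 - 1 := by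
      linear_combination g 1 1 * ht - hdF
    have hg3 : g ^ 3 = 1 := by
      apply Subtype.ext
      rw [pow_succ, sq, Matrix.SpecialLinearGroup.coe_mul, Matrix.SpecialLinearGroup.coe_mul,
        Matrix.SpecialLinearGroup.coe_one]
      ext i j
      fin_cases i <;> fin_cases j <;> simp [Matrix.mul_apply, Fin.sum_univ_two]
      · linear_combination g 0 0 * h00 + g 1 0 * h01 + 2 * h00 + (g 0 0 - 1) * h3
      · linear_combination g 0 1 * h00 + g 1 1 * h01 + 2 * g 0 1 * ht + g 0 1 * h3
      · linear_combination g 0 0 * h10 + g 1 0 * h11 + 2 * g 1 0 * ht + g 1 0 * h3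
      · linear_combination g 0 1 * h10 + g 1 1 * h11 + 2 * h11 + (g 1 1 - 1) * h3
    have := orderOf_dvd_of_pow_eq_one hg3
    rw [hg] at this
    norm_num at this
  have hprim : IsPrimitiveRoot μ 73 :=
    IsPrimitiveRoot.iff_orderOf.mpr (orderOf_eq_prime h73 hμ1)
  refine ⟨μ, l, l', hprim, hl, hl', hll fun h => ?_⟩
  have h2 : μ ^ 2 = 1 := by rw [sq]; nth_rw 2 [h]; exact mul_inv_cancel₀ hμ0
  have := Nat.le_of_dvd (by norm_num) ((hprim.pow_eq_one_iff_dvd 2).mp h2)
  norm_num at this

/-- The digits of a label as a list. -/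
theorem digits_labOf (n x : ℕ) :
    (List.ofFn fun i => ((labOf n x i : Fin 3) : ℕ)) = (List.range n).map fun i => x / 3 ^ i % 3 := by
  refine List.ext_getElem (by simp) fun i h1 h2 => ?_
  simp [labOf]

end CfsgLib.E8PSLThree56
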