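import Cfsg.Agent.E8PSLThree56.Profiles
import Cfsg.Agent.E8PSLThree56.Setup

/-!
The group E8 over the field of three elements has no subgroup isomorphic to PSL(2, 243) or PSL(2, 729).
-/

set_option autoImplicit false
set_option maxRecDepth 20000
set_option maxHeartbeats 400000

namespace CfsgLib.E8PSLThree56

open Cfsg.Lie CfsgLib.SLTwoDef56 Module
open scoped MatrixGroups

universe u

variable {F : Type u} [Field F] [Fintype F]

/-- The matrices of the lifted representation. -/
def liftRep {H : Subgroup ↥(chevE8.group (ZMod 3))}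
    (e : ↥H ≃* Matrix.ProjectiveSpecialLinearGroup (Fin 2) F) :
    SL(2, F) →* ↥(chevE8.group (ZMod 3)) :=
  (H.subtype.comp e.symm.toMonoidHom).comp (QuotientGroup.mk' _)

theorem liftRep_eq_one {H : Subgroup ↥(chevE8.group (ZMod 3))}
    (e : ↥H ≃* Matrix.ProjectiveSpecialLinearGroup (Fin 2) F) (g : SL(2, F)) :
    liftRep e g = 1 ↔ g ∈ Subgroup.center (SL(2, F)) := by
  rw [liftRep, MonoidHom.comp_apply, MonoidHom.comp_apply, Subgroup.subtype_apply,
    OneMemClass.coe_eq_one]
  exact (map_eq_one_iff _ e.symm.injective).trans (QuotientGroup.eq_one_iff g)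

theorem wMat_not_center : (wMat : SL(2, F)) ∉ Subgroup.center (SL(2, F)) := fun h => by
  have h1 := Matrix.SpecialLinearGroup.scalar_eq_self_of_mem_center h (0 : Fin 2)
  have h2 := congrFun (congrFun h1 0) 1
  simp [wMat, Matrix.scalar_apply] at h2

theorem neg_one_center : (-1 : SL(2, F)) ∈ Subgroup.center (SL(2, F)) :=
  Subgroup.mem_center_iff.mpr fun g => Subtype.ext (by
    simp [Matrix.SpecialLinearGroup.coe_mul])

theorem order_quarter {H : Subgroup ↥(chevE8.group (ZMod 3))}
    (e : ↥H ≃* Matrix.ProjectiveSpecialLinearGroup (Fin 2) F) : orderOf (liftRep e wMat) = 2 := by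
  refine orderOf_eq_prime ?_ fun h => wMat_not_center ((liftRep_eq_one e _).mp h)
  rw [← map_pow, wMat_pow]
  exact (liftRep_eq_one e _).mpr neg_one_center

theorem exists_iota {n : ℕ} (hn : n ≠ 0) (hF : Fintype.card F = 3 ^ n) :
    Nonempty (F →+* AlgebraicClosure (ZMod 3)) := by
  haveI : CharP F 3 := by
    obtain ⟨p, hp⟩ := CharP.exists F
    obtain ⟨k, hpp, hcard⟩ := FiniteField.card F p
    have h3 : 3 = p := (Nat.prime_dvd_prime_iff_eq Nat.prime_three hpp).mp
      (Nat.prime_three.dvd_of_dvd_pow (n := (k : ℕ)) (hcard ▸ hF.symm ▸ dvd_pow_self 3 hn))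
    rwa [h3]
  letI : Algebra (ZMod 3) F := ZMod.algebra F 3
  exact ⟨(IsAlgClosed.lift : F →ₐ[ZMod 3] AlgebraicClosure (ZMod 3)).toRingHom⟩

/-- The counts of eigenvalues through the orbits of labels. -/
theorem orbit_counts {n N j : ℕ} {K : Type} [Field K] (m : (Fin n → Fin 3) → ℕ)
    (hs : ∀ a, m (shift a) = m a) (orbs : List (ℕ × List ℕ))
    (hnd : (orbs.flatMap Prod.snd).Nodup)
    (horb : ∀ p ∈ orbs, p.2 = (List.range p.2.length).map fun i => lam (shift^[i] (labOf n p.1)))
    (hsupp : ∀ a, m a ≠ 0 → lam a ∈ orbs.flatMap Prod.snd)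
    {μ : K} (hμ : IsPrimitiveRoot μ N) (hN : 0 < N) (hj : j < N) :
    ∑ a, m a * eigCount μ a (μ ^ j) =
      (orbs.map fun p => m (labOf n p.1) *
        (p.2.map fun x => resCount N j (digitsL n x)).sum).sum := by
  rw [sum_orbits m hs orbs hnd horb hsupp]
  refine congrArg List.sum (List.map_congr_left fun p _ => ?_)
  congr 1
  refine congrArg List.sum (List.map_congr_left fun x _ => ?_)
  rw [eigCount_eq _ hμ hN hj, digits_labOf, digitsL]

theorem ofFn_digits {n : ℕ} (a : Fin n → Fin 3) :
    digitsL n (lam a) = List.ofFn fun i => ((a i : Fin 3) : ℕ) := by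
  rw [digitsL, ← digits_labOf, labOf_lam]

theorem sum_digits_mod_two {n : ℕ} (a : Fin n → Fin 3) :
    (List.ofFn fun i => ((a i : Fin 3) : ℕ)).sum % 2 = lam a % 2 := by
  rw [List.sum_ofFn, lam]
  conv_lhs => rw [Finset.sum_nat_mod]
  conv_rhs => rw [Finset.sum_nat_mod]
  congr 1
  refine Finset.sum_congr rfl fun i _ => ?_
  rw [Nat.mul_mod, Nat.pow_mod]
  simp

/-- The labels with non-zero multiplicity are in the table. -/
theorem supp_of_cover {n : ℕ} (orbs : List (ℕ × List ℕ))
    (hcover : ((List.range (3 ^ n)).all fun x =>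
      ((digitsL n x).sum % 2 == 1) || decide (248 < ((digitsL n x).map fun d => d + 1).prod) ||
        (orbs.flatMap Prod.snd).elem x) = true)
    (m : (Fin n → Fin 3) → ℕ) (hev : ∀ a, m a ≠ 0 → Even (lam a))
    (hdim : ∑ a, m a * wdim a = 248) : ∀ a, m a ≠ 0 → lam a ∈ orbs.flatMap Prod.snd := by
  intro a ha
  simp only [List.all_eq_true, List.mem_range, Bool.or_eq_true, beq_iff_eq, decide_eq_true_eq,
    List.elem_iff] at hcover
  rcases hcover (lam a) (lam_lt a) with (h | h) | h
  · rw [ofFn_digits, sum_digits_mod_two] at h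
    have := Nat.even_iff.mp (hev a ha)
    omega
  · exfalso
    rw [ofFn_digits, List.map_ofFn, List.prod_ofFn] at h
    have h2 : wdim a ≤ 248 :=
      calc wdim a = 1 * wdim a := (one_mul _).symm
        _ ≤ m a * wdim a := Nat.mul_le_mul_right _ (Nat.one_le_iff_ne_zero.mpr ha)
        _ ≤ ∑ b, m b * wdim b :=
          Finset.single_le_sum (f := fun b => m b * wdim b) (fun _ _ => Nat.zero_le _) (Finset.mem_univ a)
        _ = 248 := hdim
    simp only [wdim, Function.comp_apply] at h h2
    omega
  · exact h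

/-- Column sums. -/
theorem sum_index (L : List (ℕ × List ℕ)) (f : ℕ × List ℕ → ℤ) :
    (L.map f).sum = ∑ j ∈ (List.range L.length).toFinset, f (L.getD j (0, [])) := by
  rw [List.sum_toFinset _ List.nodup_range]
  congr 1
  refine List.ext_getElem (by simp) fun i h1 h2 => ?_
  simp only [List.length_map] at h1
  simp [h1]

abbrev Kc : Type := AlgebraicClosure (ZMod 3)

/-- The matrices of the lifted representation. -/
noncomputable def matRep {H : Subgroup ↥(chevE8.group (ZMod 3))}
    (e : ↥H ≃* Matrix.ProjectiveSpecialLinearGroup (Fin 2) F) :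
    SL(2, F) →* Matrix chevE8.Idx chevE8.Idx (ZMod 3) :=
  ((Units.coeHom _).comp (chevE8.group (ZMod 3)).subtype).comp (liftRep e)

theorem card_idx_E8 : Fintype.card chevE8.Idx = 248 := by
  rw [Fintype.card_sum, Fintype.card_fin, Fintype.card_fin]
  rfl

theorem matRep_neg {H : Subgroup ↥(chevE8.group (ZMod 3))}
    (e : ↥H ≃* Matrix.ProjectiveSpecialLinearGroup (Fin 2) F) : matRep e (-1) = 1 := by
  rw [matRep, MonoidHom.comp_apply, (liftRep_eq_one e _).mpr neg_one_center, map_one]

theorem no_243 (hF : Fintype.card F = 243) (H : Subgroup ↥(chevE8.group (ZMod 3))) :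
    IsEmpty (↥H ≃* Matrix.ProjectiveSpecialLinearGroup (Fin 2) F) := by
  classical
  constructor
  intro e
  obtain ⟨ι⟩ := exists_iota (n := 5) (by norm_num) (by rw [hF]; norm_num)
  obtain ⟨m, hs, hev, hdim, heig⟩ := exists_mult ι (n := 5) (by rw [hF]; norm_num) (matRep e)
    (matRep_neg e)
  rw [card_idx_E8] at hdim
  obtain ⟨μ, l, l', hμ, hl, hl', hll⟩ := exists_quarter ι
  obtain ⟨mn, hmn, hminus, -⟩ := exists_minus (K := Kc) (order_quarter e)
  have h4 : (4 : ℕ) ≠ 0 := by norm_num
  have hN0 : ((4 : ℕ) : Kc) ≠ 0 := by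
    rw [Ne, CharP.cast_eq_zero_iff Kc 3]; norm_num
  have hμ2 : μ ^ 2 = -1 := by
    have := hμ.pow (by norm_num) (show 4 = 2 * 2 by norm_num)
    exact this.eq_neg_one_of_two_right
  have hw4 : (wMat : SL(2, F)) ^ 4 = 1 := by
    rw [show 4 = 2 * 2 from rfl, pow_mul, wMat_pow, neg_one_sq]
  have heig2 := heig _ 4 hw4 hN0 μ l l' hl hl' hll (μ ^ 2)
  have hsupp := supp_of_cover orbs5 (by exact cover5) m hev hdim
  rw [orbit_counts m hs orbs5 orbs5_nodup orbs5_eq hsupp hμ (by norm_num) (by norm_num), hμ2] at heig2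
  have hm : mn = (orbs5.map fun p => m (labOf 5 p.1) *
      (p.2.map fun x => resCount 4 2 (digitsL 5 x)).sum).sum := hminus.symm.trans heig2
  have hd : 248 = (orbs5.map fun p => m (labOf 5 p.1) *
      (p.2.map fun x => ((digitsL 5 x).map fun d => d + 1).prod).sum).sum := by
    rw [← hdim, sum_orbits m hs orbs5 orbs5_nodup orbs5_eq hsupp]
    refine congrArg List.sum (List.map_congr_left fun p _ => congrArg _
      (congrArg List.sum (List.map_congr_left fun x _ => ?_)))
    rw [digitsL, ← digits_labOf, List.map_ofFn, List.prod_ofFn]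
    rfl
  -- split off the Steinberg module
  have key : ∀ (L : List (ℕ × List ℕ)), (∀ p ∈ L, p ∈ orbs5) →
      ∃ r X Y, (L.map fun p => m (labOf 5 p.1) *
          (p.2.map fun x => resCount 4 2 (digitsL 5 x)).sum).sum = 5 * X + 122 * r ∧
        (L.map fun p => m (labOf 5 p.1) *
          (p.2.map fun x => ((digitsL 5 x).map fun d => d + 1).prod).sum).sum = Y + 243 * r ∧
        5 * X ≤ Y := by
    intro L
    induction L with
    | nil => intro; exact ⟨0, 0, 0, by simp, by simp, le_refl _⟩
    | cons p L ih =>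
      intro hp
      obtain ⟨r, X, Y, h1, h2, h3⟩ := ih fun q hq => hp q (List.mem_cons_of_mem _ hq)
      have hpm := hp p List.mem_cons_self
      simp only [List.map_cons, List.sum_cons, h1, h2]
      by_cases htop : p.1 = 242
      · have ht := top_counts
        simp only [List.all_eq_true, Bool.or_eq_true, Bool.not_eq_true', beq_eq_false_iff_ne,
          Bool.and_eq_true, beq_iff_eq] at ht
        obtain ⟨t1, t2⟩ := (ht p hpm).resolve_left (not_not.mpr htop)
        exact ⟨r + m (labOf 5 p.1), X, Y, by rw [t1]; ring, by rw [t2]; ring, h3⟩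
      · have hv := five_dvd
        have hle := minus_le_dim
        simp only [List.all_eq_true, Bool.or_eq_true, beq_iff_eq, decide_eq_true_eq] at hv hle
        obtain ⟨q, hq⟩ := Nat.dvd_of_mod_eq_zero ((hv p hpm).resolve_left htop)
        have hle' := hle p hpm
        refine ⟨r, X + m (labOf 5 p.1) * q, Y + m (labOf 5 p.1) *
          (p.2.map fun x => ((digitsL 5 x).map fun d => d + 1).prod).sum,
          by rw [hq]; ring, by ring, ?_⟩
        rw [hq] at hle'
        have := Nat.mul_le_mul_left (m (labOf 5 p.1)) hle'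
        rw [mul_add]
        linarith
  obtain ⟨r, X, Y, h1, h2, h3⟩ := key orbs5 fun p hp => hp
  rw [h1] at hm
  rw [h2] at hd
  simp only [List.mem_cons, List.not_mem_nil, or_false] at hmn
  rcases hmn with rfl | rfl <;> omega

theorem no_729 (hF : Fintype.card F = 729) (H : Subgroup ↥(chevE8.group (ZMod 3))) :
    IsEmpty (↥H ≃* Matrix.ProjectiveSpecialLinearGroup (Fin 2) F) := by
  classical
  constructor
  intro e
  haveI : Fact (Nat.Prime 73) := ⟨by norm_num⟩
  obtain ⟨ι⟩ := exists_iota (n := 6) (by norm_num) (by rw [hF]; norm_num)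
  obtain ⟨m, hs, hev, hdim, heig⟩ := exists_mult ι (n := 6) (by rw [hF]; norm_num) (matRep e)
    (matRep_neg e)
  rw [card_idx_E8] at hdim
  obtain ⟨μ, l, l', hμ, hl, hl', hll⟩ := exists_quarter ι
  obtain ⟨mn, hmn, hminus, hplus⟩ := exists_minus (K := Kc) (order_quarter e)
  have hN0 : ((4 : ℕ) : Kc) ≠ 0 := by
    rw [Ne, CharP.cast_eq_zero_iff Kc 3]; norm_num
  have hμ2 : μ ^ 2 = -1 := by
    have := hμ.pow (by norm_num) (show 4 = 2 * 2 by norm_num)
    exact this.eq_neg_one_of_two_right
  have hw4 : (wMat : SL(2, F)) ^ 4 = 1 := by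
    rw [show 4 = 2 * 2 from rfl, pow_mul, wMat_pow, neg_one_sq]
  obtain ⟨g, hg⟩ := exists_order73 hF
  obtain ⟨η, k, k', hη, hk, hk', hkk⟩ := exists_eig73 ι hg
  have hg73 : g ^ 73 = 1 := hg ▸ pow_orderOf_eq_one g
  have hgord : orderOf (liftRep e g) = 73 := by
    refine orderOf_eq_prime (by rw [← map_pow, hg73, map_one]) fun h => ?_
    have hc := (liftRep_eq_one e g).mp h
    have h1 := Matrix.SpecialLinearGroup.scalar_eq_self_of_mem_center hc (0 : Fin 2)
    have h01 := congrFun (congrFun h1 0) 1
    have h10 := congrFun (congrFun h1 1) 0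
    have h11 := congrFun (congrFun h1 1) 1
    simp [Matrix.scalar_apply] at h01 h10 h11
    have hd : g 0 0 * g 1 1 - g 0 1 * g 1 0 = 1 := by
      rw [← Matrix.det_fin_two (g : Matrix (Fin 2) (Fin 2) F)]; exact g.2
    have hsq : g ^ 2 = 1 := by
      apply Subtype.ext
      rw [sq, Matrix.SpecialLinearGroup.coe_mul, Matrix.SpecialLinearGroup.coe_one]
      ext i j
      fin_cases i <;> fin_cases j <;> simp [Matrix.mul_apply, Fin.sum_univ_two, ← h01, ← h10, ← h11]
      all_goals (rw [← h01, ← h10, ← h11] at hd; linear_combination hd)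
    have := orderOf_dvd_of_pow_eq_one hsq
    rw [hg] at this
    norm_num at this
  have h730 : ((73 : ℕ) : Kc) ≠ 0 := by
    rw [Ne, CharP.cast_eq_zero_iff Kc 3]; norm_num
  obtain ⟨A, hA, B, hB, hAB, hprof⟩ := exists_profile hgord hη
  obtain ⟨t, ht, hteq⟩ := exists_target hA hB hAB
  have hsupp := supp_of_cover orbs6 (by exact cover6) m hev hdim
  -- the certificate
  have hcov := certs_cover
  simp only [List.all_eq_true, List.any_eq_true, beq_iff_eq] at hcov
  obtain ⟨⟨rem, tree⟩, hp, hrem⟩ := hcov t ht mn hmn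
  have hok := certs_ok
  simp only [List.all_eq_true] at hok
  have hnn := cols6_nonneg
  simp only [List.all_eq_true, decide_eq_true_eq] at hnn
  refine chkTree_sound 9 cols6 (fun j i => ?_) tree _ rem (hok _ hp) List.nodup_range
    (fun j => m (labOf 6 (orbs6.getD j (0, [])).1)) fun i hi => ?_
  · rcases lt_or_ge j cols6.length with hj | hj
    · rcases lt_or_ge i (cols6.getD j []).length with hi | hi
      · rw [List.getD_eq_getElem _ _ hi]
        refine hnn _ ?_ _ (List.getElem_mem _)
        rw [List.getD_eq_getElem _ _ hj]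
        exact List.getElem_mem _
      · rw [List.getD_eq_default _ _ hi]
    · rw [List.getD_eq_default _ _ hj]; simp
  · have hrow : rem.getD i 0 = (((orbs6.map fun p => m (labOf 6 p.1) *
        (p.2.map fun x => rowCount i (digitsL 6 x)).sum).sum : ℕ) : ℤ) := by
      rw [show rem = _ from hrem]
      have hlow : ∀ j < 4, ∀ ν : Kc, μ ^ j = ν → finrank Kc ↥(Module.End.eigenspace
          (Matrix.toLin' ((matRep e wMat).map (ZMod.castHom (dvd_refl 3) Kc))) ν) =
          (orbs6.map fun p => m (labOf 6 p.1) *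
            (p.2.map fun x => resCount 4 j (digitsL 6 x)).sum).sum := by
        intro j hj ν hν
        rw [heig _ 4 hw4 hN0 μ l l' hl hl' hll ν, ← hν,
          orbit_counts m hs orbs6 orbs6_nodup orbs6_eq hsupp hμ (by norm_num) hj]
      match i, hi with
      | 0, _ =>
        simp only [rowCount, Nat.reduceLT, if_true, mul_zero]
        rw [List.getD_cons_zero, ← hlow 0 (by norm_num) 1 (pow_zero μ)]
        exact congrArg Nat.cast hplus.symm
      | 1, _ =>
        simp only [rowCount, Nat.reduceLT, if_true, mul_one]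
        rw [List.getD_cons_succ, List.getD_cons_zero, ← hlow 2 (by norm_num) (-1) hμ2]
        exact congrArg Nat.cast hminus.symm
      | i + 2, hi =>
        have hlen : ∀ k < 7, reps73.getD k 0 < 73 := by decide
        have hj := hlen i (by omega)
        simp only [rowCount, show ¬ i + 2 < 2 by omega, if_false, Nat.add_sub_cancel]
        rw [List.getD_cons_succ, List.getD_cons_succ, ← orbit_counts m hs orbs6 orbs6_nodup orbs6_eq
          hsupp hη (by norm_num) hj, ← heig g 73 hg73 h730 η k k' hk hk' hkk (η ^ reps73.getD i 0)]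
        rw [show matRep e g = ((liftRep e g : GL chevE8.Idx (ZMod 3)) : Matrix chevE8.Idx chevE8.Idx
          (ZMod 3)) from rfl, hprof _ hj, hteq]
        have hlen2 : i < reps73.length := by
          rw [show reps73.length = 7 from rfl]; omega
        rw [List.getD_eq_getElem _ _ hlen2, List.getD_eq_getElem _ _ (by simpa using hlen2)]
        simp
    rw [hrow, Nat.cast_list_sum, List.map_map, sum_index]
    refine Finset.sum_congr rfl fun j hj => ?_
    rw [List.mem_toFinset, List.mem_range] at hj
    rw [cols6_eq, List.getD_eq_getElem _ _ (show j < (orbs6.map _).length by simpa using hj),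
      List.getElem_map, getD_mapRange hi, List.getD_eq_getElem _ _ hj, Function.comp_apply, Nat.cast_mul]

end CfsgLib.E8PSLThree56
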