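import Cfsg.Agent.E8PSLThree56.Twisted
import Cfsg.Agent.E8PSLThree56.Word
import Cfsg.Agent.ChevSteinberg.Data
import Cfsg.Agent.ChevSteinberg.CenterData
import Cfsg.Agent.Chevalley.Order

/-!
Elements of order seventy-three of E8 over the field of three elements and their eigenvalues in the adjoint module.
-/

set_option autoImplicit false
set_option maxRecDepth 20000

namespace CfsgLib.E8PSLThree56

open Cfsg.Lie CfsgLib.Chevalley CfsgLib.ChevSteinberg CfsgLib.ChevField CfsgLib.ChevTori Module

variable {K : Type} [Field K]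

/-- The exponents on the roots of a point of the twisted torus. -/
def rexp (A B : ℕ) (r : ℕ) : ℕ := (A * rexp1.getD r 0 + B * rexp2.getD r 0) % 73

/-- The exponent of a coordinate. -/
def iexp (A B : ℕ) : chevE8.Idx → ℕ
  | .inl _ => 0
  | .inr r => rexp A B r.val

/-- Eigenspaces of a diagonal matrix. -/
theorem finrank_eigenspace_diagonal {I : Type*} [Fintype I] [DecidableEq I] (d : I → K) (ν : K)
    [DecidablePred fun i => d i = ν] :
    finrank K ↥(Module.End.eigenspace (Matrix.toLin' (Matrix.diagonal d)) ν) =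
      (Finset.univ.filter fun i => d i = ν).card := by
  have hmem : ∀ x, x ∈ Module.End.eigenspace (Matrix.toLin' (Matrix.diagonal d)) ν ↔
      ∀ i, d i ≠ ν → x i = 0 := fun x => by
    rw [Module.End.mem_eigenspace_iff, funext_iff]
    refine forall_congr' fun i => ?_
    rw [Matrix.toLin'_apply, Matrix.mulVec_diagonal, Pi.smul_apply, smul_eq_mul,
      mul_eq_mul_right_iff]
    tauto
  have e : ↥(Module.End.eigenspace (Matrix.toLin' (Matrix.diagonal d)) ν) ≃ₗ[K]
      ({i // d i = ν} → K) :=
    { toFun := fun x i => (x : I → K) i.1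
      map_add' := fun _ _ => rfl
      map_smul' := fun _ _ => rfl
      invFun := fun y => ⟨fun i => if h : d i = ν then y ⟨i, h⟩ else 0,
        (hmem _).mpr fun i hi => dif_neg hi⟩
      left_inv := fun x => Subtype.ext (funext fun i => by
        by_cases h : d i = ν
        · exact dif_pos h
        · exact (dif_neg h).trans (((hmem _).mp x.2) i h).symm)
      right_inv := fun y => funext fun i => dif_pos i.2 }
  rw [e.finrank_eq, Module.finrank_fintype_fun_eq_card, Fintype.card_subtype]

/-- Eigenspaces of conjugate matrices. -/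
theorem finrank_eigenspace_conj {I : Type*} [Fintype I] [DecidableEq I] (g X : GL I K) (ν : K) :
    finrank K ↥(Module.End.eigenspace (Matrix.toLin' ((g * X * g⁻¹ : GL I K) : Matrix I I K)) ν) =
      finrank K ↥(Module.End.eigenspace (Matrix.toLin' (X : Matrix I I K)) ν) := by
  let e : (I → K) ≃ₗ[K] (I → K) :=
    { Matrix.toLin' (g : Matrix I I K) with
      invFun := Matrix.toLin' ((g⁻¹ : GL I K) : Matrix I I K)
      left_inv := fun x => by
        show Matrix.toLin' _ (Matrix.toLin' _ x) = x
        rw [← Matrix.toLin'_mul_apply, ← Units.val_mul, inv_mul_cancel]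
        simp
      right_inv := fun x => by
        show Matrix.toLin' _ (Matrix.toLin' _ x) = x
        rw [← Matrix.toLin'_mul_apply, ← Units.val_mul, mul_inv_cancel]
        simp }
  have hmap : (Module.End.eigenspace (Matrix.toLin' (X : Matrix I I K)) ν).map (e : (I → K) →ₗ[K] (I → K)) =
      Module.End.eigenspace (Matrix.toLin' ((g * X * g⁻¹ : GL I K) : Matrix I I K)) ν := by
    ext y
    rw [Submodule.mem_map_equiv, Module.End.mem_eigenspace_iff, Module.End.mem_eigenspace_iff,
      Units.val_mul, Units.val_mul, Matrix.toLin'_mul_apply, Matrix.toLin'_mul_apply]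
    show Matrix.toLin' (X : Matrix I I K) (e.symm y) = ν • e.symm y ↔
      e (Matrix.toLin' (X : Matrix I I K) (e.symm y)) = ν • y
    rw [← e.injective.eq_iff, map_smul, LinearEquiv.apply_symm_apply]
  rw [← hmap]
  exact LinearEquiv.finrank_map_eq e _

/-- The number of coordinates with a given exponent. -/
def expCount (A B j : ℕ) : ℕ :=
  ((Finset.univ : Finset chevE8.Idx).filter fun i => iexp A B i = j).card

theorem torHom_inj_E8 (K : Type) [Field K] :
    Function.Injective ((groupSys sysE8 K).torHom (groupSys_mulH sysE8 K) witness_E8) := by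
  intro a b e
  have e1 := congrArg (groupSys sysE8 K).θ e
  rw [← MonoidHom.comp_apply, ← MonoidHom.comp_apply, StSys.θ_comp_torHom] at e1
  exact (MonoidHom.ker_eq_bot_iff _).1 ker_torF_E8 e1

theorem card_group_E8_three : Nat.card ↥(chevE8.group (ZMod 3)) = 3 ^ 120 * orderR := by
  have h := sysE8.natCard_group_eq (F := ZMod 3) (l := 8) (N := 120) (d := 1) (R := orderR) rfl rfl
    (natCardDiagonalE8 (ZMod 3)) (by rw [ZMod.card]; exact orderR_eq)
  rwa [one_mul, ZMod.card] at h

/-- The eigenspaces of elements of order seventy-three. -/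
theorem exists_profile [IsAlgClosed K] [CharP K 3] {a : ↥(chevE8.group (ZMod 3))}
    (ha : orderOf a = 73) {ζ : K} (hζ : IsPrimitiveRoot ζ 73) :
    ∃ A < 73, ∃ B < 73, (A ≠ 0 ∨ B ≠ 0) ∧ ∀ j < 73,
      finrank K ↥(Module.End.eigenspace (Matrix.toLin'
        (((a : GL chevE8.Idx (ZMod 3)) : Matrix chevE8.Idx chevE8.Idx (ZMod 3)).map
          (ZMod.castHom (dvd_refl 3) K))) (ζ ^ j)) = expCount A B j := by
  classical
  letI : Algebra (ZMod 3) K := ZMod.algebra K 3
  haveI : Fact (Nat.Prime 73) := ⟨by norm_num⟩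
  obtain ⟨g, -, hg⟩ := twisted_points sysE8 witness_E8 (F := ZMod 3) word73 K
    (torHom_inj_E8 K)
  rw [← mat73_eq] at hg
  obtain ⟨ζu, rfl⟩ : ∃ u : Kˣ, (u : K) = ζ := ⟨(hζ.isUnit (by norm_num)).unit, IsUnit.unit_spec _⟩
  have hζu : IsPrimitiveRoot ζu 73 := IsPrimitiveRoot.coe_units_iff.mp hζ
  let χ : AddChar (ZMod 73) Kˣ := AddChar.zmodChar 73 hζu.pow_eq_one
  have hχ : ∀ z : ZMod 73, χ z = ζu ^ z.val := fun z => rfl
  have hχn : ∀ k : ℕ, χ (k : ZMod 73) = ζu ^ k := fun k => by
    rw [hχ, ZMod.val_natCast, pow_eq_pow_mod k hζu.pow_eq_one]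
  have hsum : ∀ f : Fin chevE8.rank → ZMod 73, χ (∑ j, f j) = ∏ j, χ (f j) := fun f => by
    induction (Finset.univ : Finset (Fin chevE8.rank)) using Finset.induction_on with
    | empty => simp
    | insert i s hi ih => rw [Finset.sum_insert hi, Finset.prod_insert hi, χ.map_add_eq_mul, ih]
  let w : ZMod 73 × ZMod 73 → Fin chevE8.rank → ZMod 73 := fun v j => v.1 * base1 j + v.2 * base2 j
  let c : ZMod 73 × ZMod 73 → Fin chevE8.rank → Kˣ := fun v j => χ (w v j)
  have hc_add : ∀ v v', c (v + v') = c v * c v' := fun v v' => funext fun j => by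
    show χ _ = χ _ * χ _
    rw [← χ.map_add_eq_mul]
    congr 1
    show (v.1 + v'.1) * _ + (v.2 + v'.2) * _ = _
    ring
  have hfix : ∀ v, matAct mat73 (c v ^ Fintype.card (ZMod 3)) = c v := fun v => funext fun k => by
    show ∏ j, (χ (w v j) ^ Fintype.card (ZMod 3)) ^ mat73 k j = χ (w v k)
    simp only [ZMod.card, ← AddChar.map_nsmul_eq_pow, ← AddChar.map_zsmul_eq_zpow]
    rw [← hsum]
    congr 1
    obtain ⟨h1, h2⟩ := base_fixed k
    calc ∑ j, mat73 k j • (3 • w v j)
        = v.1 * (∑ j, 3 * (mat73 k j : ZMod 73) * (base1 j : ZMod 73)) +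
          v.2 * (∑ j, 3 * (mat73 k j : ZMod 73) * (base2 j : ZMod 73)) := by
          rw [Finset.mul_sum, Finset.mul_sum, ← Finset.sum_add_distrib]
          refine Finset.sum_congr rfl fun j _ => ?_
          simp only [w, zsmul_eq_mul, nsmul_eq_mul]
          push_cast
          ring
      _ = _ := by rw [h1, h2]
  choose h hh using fun v => hg (c v) (hfix v)
  have hmul : ∀ v v', h (v + v') = h v * h v' := fun v v' => by
    apply Subtype.ext
    apply gmap_injective (D := chevE8) (algebraMap (ZMod 3) K)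
    rw [Subgroup.coe_mul, map_mul, hh, hh, hh, hc_add, map_mul]
    group
  let hom : Multiplicative (ZMod 73 × ZMod 73) →* ↥(chevE8.group (ZMod 3)) :=
    MonoidHom.mk' (fun v => h v.toAdd) fun v v' => hmul v.toAdd v'.toAdd
  have hval : ∀ v r, torusVal chevE8 (extendOne chevE8.rank Kˣ (c v)) r =
      χ (∑ j : Fin chevE8.rank, (chevE8.cartan j r : ZMod 73) * w v j) := fun v r => by
    rw [torusVal_extendOne, hsum]
    refine Finset.prod_congr rfl fun j _ => ?_
    rw [← zsmul_eq_mul, AddChar.map_zsmul_eq_zpow]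
  have hroot : ∀ v (r : Fin chevE8.nroots), ((torusVal chevE8 (extendOne chevE8.rank Kˣ (c v)) r : Kˣ) : K) =
      (ζu : K) ^ rexp v.1.val v.2.val r := fun v r => by
    rw [hval, ← Units.val_pow_eq_pow_val, ← hχn]
    congr 2
    obtain ⟨h1, h2⟩ := rexp_eq r
    rw [rexp, ZMod.natCast_mod, Nat.cast_add, Nat.cast_mul, Nat.cast_mul, ← h1, ← h2,
      ZMod.natCast_rightInverse, ZMod.natCast_rightInverse, Finset.mul_sum, Finset.mul_sum,
      ← Finset.sum_add_distrib]
    exact Finset.sum_congr rfl fun j _ => by simp only [w]; ring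
  have hinj : Function.Injective hom := by
    rw [injective_iff_map_eq_one]
    intro v hv
    have h1 : StSys.torF chevE8 K (c v.toAdd) = 1 := by
      have := hh v.toAdd
      rw [show h v.toAdd = 1 from hv, Subgroup.coe_one, map_one] at this
      exact conj_eq_one_iff.mp this.symm
    rw [← MonoidHom.mem_ker, ker_torF_E8, Subgroup.mem_bot] at h1
    have hw : ∀ j, w v.toAdd j = 0 := fun j => by
      have := congrFun h1 j
      rw [Pi.one_apply] at this
      have h2 : (w v.toAdd j).val = 0 := by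
        by_contra hne
        exact hζu.pow_ne_one_of_pos_of_lt hne (ZMod.val_lt _) this
      exact (ZMod.val_eq_zero _).mp h2
    have e6 := hw ⟨6, by decide⟩
    have e7 := hw ⟨7, by decide⟩
    simp only [w, base1, base2, List.getD_cons_succ, List.getD_cons_zero, Nat.cast_zero,
      Nat.cast_one, mul_zero, mul_one, add_zero, zero_add] at e6 e7
    exact Multiplicative.toAdd.injective (Prod.ext e6 e7)
  -- Sylow
  haveI : Finite ↥(chevE8.group (ZMod 3)) :=
    Nat.finite_of_card_ne_zero (by rw [card_group_E8_three, orderR]; norm_num)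
  have hPc : Nat.card hom.range = 73 ^ 2 := by
    rw [← MonoidHom.ofInjective hinj |>.toEquiv |> Nat.card_congr, Nat.card_eq_fintype_card,
      Fintype.card_multiplicative, Fintype.card_prod, ZMod.card, sq]
  obtain ⟨Q, hQ⟩ := (IsPGroup.of_card hPc).exists_le_sylow
  obtain ⟨k, hk⟩ := (IsPGroup.iff_card (p := 73)).mp Q.2
  have hPQ : hom.range = (Q : Subgroup _) := by
    refine Subgroup.eq_of_le_of_card_ge hQ ?_
    rw [hk, hPc]
    refine Nat.pow_le_pow_right (by norm_num) ?_
    by_contra hk2
    refine orderR_dvd (card_group_E8_three ▸ dvd_trans ?_ (Subgroup.card_subgroup_dvd_card (Q : Subgroup _)))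
    rw [hk]
    exact pow_dvd_pow 73 (by omega)
  obtain ⟨Q', hQ'⟩ := (IsPGroup.of_card (n := 1)
    (show Nat.card (Subgroup.zpowers a) = 73 ^ 1 by rw [Nat.card_zpowers, ha, pow_one])).exists_le_sylow
  obtain ⟨x, hx⟩ := MulAction.exists_smul_eq ↥(chevE8.group (ZMod 3)) Q' Q
  have hxa : x * a * x⁻¹ ∈ hom.range := by
    rw [hPQ, ← hx, Sylow.coe_subgroup_smul]
    exact Subgroup.smul_mem_pointwise_smul a (MulAut.conj x) _ (hQ' (Subgroup.mem_zpowers a))
  obtain ⟨v, hv⟩ := hxa
  refine ⟨v.toAdd.1.val, ZMod.val_lt _, v.toAdd.2.val, ZMod.val_lt _, ?_, fun j hj => ?_⟩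
  · by_contra h0
    rw [not_or, not_not, not_not, ZMod.val_eq_zero, ZMod.val_eq_zero] at h0
    have hv1 : v = 1 := Multiplicative.toAdd.injective (Prod.ext h0.1 h0.2)
    rw [hv1, map_one, eq_comm, conj_eq_one_iff] at hv
    rw [hv, orderOf_one] at ha
    norm_num at ha
  · set f := algebraMap (ZMod 3) K
    have hf : ZMod.castHom (dvd_refl 3) K = f := RingHom.ext_zmod _ _
    have e : gmap chevE8 f (a : GL chevE8.Idx (ZMod 3)) =
        ((gmap chevE8 f (x : GL chevE8.Idx (ZMod 3)))⁻¹ * g) * StSys.torF chevE8 K (c v.toAdd) *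
          ((gmap chevE8 f (x : GL chevE8.Idx (ZMod 3)))⁻¹ * g)⁻¹ := by
      have h3 : gmap chevE8 f ((hom v : ↥(chevE8.group (ZMod 3))) : GL chevE8.Idx (ZMod 3)) = _ :=
        hh v.toAdd
      rw [hv, Subgroup.coe_mul, Subgroup.coe_mul, Subgroup.coe_inv, map_mul, map_mul, map_inv] at h3
      calc gmap chevE8 f (a : GL chevE8.Idx (ZMod 3))
          = (gmap chevE8 f (x : GL chevE8.Idx (ZMod 3)))⁻¹ *
            (gmap chevE8 f (x : GL chevE8.Idx (ZMod 3)) * gmap chevE8 f (a : GL chevE8.Idx (ZMod 3)) *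
              (gmap chevE8 f (x : GL chevE8.Idx (ZMod 3)))⁻¹) *
            gmap chevE8 f (x : GL chevE8.Idx (ZMod 3)) := by group
        _ = _ := by rw [h3]; group
    have e' : ((a : GL chevE8.Idx (ZMod 3)) : Matrix chevE8.Idx chevE8.Idx (ZMod 3)).map f =
        (gmap chevE8 f (a : GL chevE8.Idx (ZMod 3)) : Matrix chevE8.Idx chevE8.Idx K) := by
      ext r s
      rw [gmap_val, Matrix.map_apply]
    have hd : (StSys.torF chevE8 K (c v.toAdd) : Matrix chevE8.Idx chevE8.Idx K) =
        Matrix.diagonal fun i => (ζu : K) ^ iexp v.toAdd.1.val v.toAdd.2.val i := by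
      rw [StSys.torF, MonoidHom.comp_apply, sysE8.tor_val, dg]
      congr 1
      funext i
      rcases i with i | r
      · simp [iexp]
      · exact hroot v.toAdd r
    rw [hf, e', e, finrank_eigenspace_conj, hd, finrank_eigenspace_diagonal, expCount]
    refine congrArg Finset.card (Finset.filter_congr fun i _ => ⟨fun h => ?_, fun h => by rw [h]⟩)
    refine hζ.pow_inj ?_ hj h
    rcases i with i | r
    · exact (by norm_num : (0 : ℕ) < 73)
    · exact Nat.mod_lt _ (by norm_num)

end CfsgLib.E8PSLThree56
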