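import Cfsg.Agent.E8PSLThree56.CheckA
import Cfsg.Agent.E8PSLThree56.Torus73
import Cfsg.Agent.OddInvol.CertE8
import Cfsg.Agent.OddInvol.DataE8
import Cfsg.Agent.OddInvol.Torus
import Cfsg.Agent.Chevalley.Support

/-!
Eigenspace dimensions of involutions and of elements of order seventy-three of E8 over the field of three elements.
-/

set_option autoImplicit false
set_option maxRecDepth 20000
set_option maxHeartbeats 400000

namespace CfsgLib.E8PSLThree56

open Cfsg.Lie CfsgLib.Chevalley CfsgLib.ChevField CfsgLib.OddInvol Module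

theorem mask_counts : ((List.range 256).all fun e =>
    e == 0 || [112, 128].elem ((List.range 240).countP fun r => parB parE8 e r)) = true := by
  decide +kernel

theorem mask_zero : ((List.range 240).all fun r => !parB parE8 0 r) = true := by decide +kernel

/-- The eigenspaces of an involution. -/
theorem exists_minus {K : Type} [Field K] [CharP K 3] {t : ↥(chevE8.group (ZMod 3))}
    (ht : orderOf t = 2) :
    ∃ mn : ℕ, mn ∈ ([112, 128] : List ℕ) ∧
      finrank K ↥(Module.End.eigenspace (Matrix.toLin'
        (((t : GL chevE8.Idx (ZMod 3)) : Matrix chevE8.Idx chevE8.Idx (ZMod 3)).map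
          (ZMod.castHom (dvd_refl 3) K))) (-1)) = mn ∧
      finrank K ↥(Module.End.eigenspace (Matrix.toLin'
        (((t : GL chevE8.Idx (ZMod 3)) : Matrix chevE8.Idx chevE8.Idx (ZMod 3)).map
          (ZMod.castHom (dvd_refl 3) K))) 1) = 248 - mn := by
  classical
  have h23 : (2 : ZMod 3) ≠ 0 := by decide
  have htt : (t : GL chevE8.Idx (ZMod 3)) * t = 1 := by
    rw [← Subgroup.coe_mul, ← sq, ← ht, pow_orderOf_eq_one, Subgroup.coe_one]
  obtain ⟨x, -, c, hx⟩ := exists_tor checkedE8 (supportEq_of_chk checkedE8 chkSupp_E8) chkCertsE8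
    (ZMod 3) h23 t.2 htt
  have hcc : tor chevE8 (ZMod 3) c * tor chevE8 (ZMod 3) c = 1 := by
    rw [← hx]
    calc x * (t : GL chevE8.Idx (ZMod 3)) * x⁻¹ * (x * t * x⁻¹) = x * (t * t) * x⁻¹ := by group
      _ = 1 := by rw [htt]; group
  obtain ⟨e, he, hmask⟩ := exists_mask checkedE8.sys hcc
  have hval : ∀ r : Fin chevE8.nroots, torusVal chevE8 c r =
      if parB parE8 e r then (-1 : (ZMod 3)ˣ) else 1 := fun r => by
    rw [hmask r r.isLt, cls_eq checkedE8 chkParE8 he r.isLt, sgnU]
    cases parB parE8 e r <;> simp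
  have hm := mask_counts
  simp only [List.all_eq_true, List.mem_range, Bool.or_eq_true, beq_iff_eq, List.elem_iff] at hm
  rcases hm e he with he0 | hcnt
  · exfalso
    have h0 := mask_zero
    simp only [List.all_eq_true, List.mem_range, Bool.not_eq_true'] at h0
    have h1 : tor chevE8 (ZMod 3) c = 1 := by
      refine Units.ext ?_
      rw [checkedE8.sys.tor_val, Units.val_one, ← dg_ones]
      exact dg_congr fun s hs => by
        rw [hval ⟨s, hs⟩, he0, h0 s hs]; simp
    rw [h1, conj_eq_one_iff, ← Subgroup.coe_one, Subtype.coe_inj] at hx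
    rw [hx, orderOf_one] at ht
    norm_num at ht
  refine ⟨_, hcnt, ?_⟩
  set f := ZMod.castHom (dvd_refl 3) K
  have e1 : (((t : GL chevE8.Idx (ZMod 3)) : Matrix chevE8.Idx chevE8.Idx (ZMod 3)).map f) =
      (gmap chevE8 f (t : GL chevE8.Idx (ZMod 3)) : Matrix chevE8.Idx chevE8.Idx K) := by
    ext r s
    rw [gmap_val, Matrix.map_apply]
  have e2 : gmap chevE8 f (t : GL chevE8.Idx (ZMod 3)) =
      (gmap chevE8 f x)⁻¹ * gmap chevE8 f (tor chevE8 (ZMod 3) c) * ((gmap chevE8 f x)⁻¹)⁻¹ := by
    rw [← hx, map_mul, map_mul, map_inv]; group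
  let d : chevE8.Idx → K := Sum.elim (fun _ => 1) fun r => if parB parE8 e r then -1 else 1
  have e3 : (gmap chevE8 f (tor chevE8 (ZMod 3) c) : Matrix chevE8.Idx chevE8.Idx K) =
      Matrix.diagonal d := by
    ext r s
    rw [gmap_val, checkedE8.sys.tor_val, dg, Matrix.diagonal_apply, Matrix.diagonal_apply]
    split_ifs with h
    · rcases r with i | r
      · simp [d]
      · simp only [Sum.elim_inr, d, hval r]
        cases parB parE8 e r <;> simp
    · exact map_zero f
  rw [e1, e2, finrank_eigenspace_conj, finrank_eigenspace_conj, e3, finrank_eigenspace_diagonal,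
    finrank_eigenspace_diagonal]
  have hne : (1 : K) ≠ -1 := fun h => by
    have h2 : ((2 : ℕ) : K) = 0 := by push_cast; linear_combination h
    rw [CharP.cast_eq_zero_iff K 3] at h2
    norm_num at h2
  have hfilter : (Finset.univ.filter fun i => d i = -1) =
      (Finset.univ.filter fun r : Fin chevE8.nroots => parB parE8 e r = true).map
        Function.Embedding.inr := by
    ext i
    rcases i with i | r
    · simp [d, hne]
    · rcases hb : parB parE8 e r <;> simp [d, hb, hne]
  have hcard : (Finset.univ.filter fun i => d i = -1).card =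
      (List.range 240).countP fun r => parB parE8 e r := by
    rw [hfilter, Finset.card_map, Finset.card_filter, Fin.sum_univ_eq_sum_range
      (fun r => if parB parE8 e r = true then 1 else 0)]
    rw [← Finset.card_filter, ← List.toFinset_range, ← List.toFinset_filter,
      List.toFinset_card_of_nodup (List.nodup_range.filter _), ← List.countP_eq_length_filter]
    rfl
  refine ⟨hcard, ?_⟩
  have hsum := Finset.card_filter_add_card_filter_not (s := (Finset.univ : Finset chevE8.Idx))
    (fun i => d i = -1)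
  have hnot : (Finset.univ.filter fun i => ¬ d i = -1) = Finset.univ.filter fun i => d i = 1 := by
    refine Finset.filter_congr fun i _ => ?_
    rcases i with i | r
    · simp [d, hne]
    · rcases hb : parB parE8 e r <;> simp [d, hb, hne, hne.symm]
  rw [hcard, hnot, Finset.card_univ, Fintype.card_sum, Fintype.card_fin, Fintype.card_fin] at hsum
  have hr : chevE8.rank = 8 := rfl
  have hn : chevE8.nroots = 240 := rfl
  omega

/-- Packing counts in eight bits each. -/
theorem digit_sum (B : ℕ) : ∀ (N : ℕ) (c : ℕ → ℕ), (∀ x < N, c x < B) → ∀ e < N,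
    (∑ x ∈ Finset.range N, c x * B ^ x) / B ^ e % B = c e
  | 0, _, _, e, he => absurd he (Nat.not_lt_zero e)
  | N + 1, c, hc, e, he => by
    have h0 := hc 0 (Nat.succ_pos N)
    have hsum : ∑ x ∈ Finset.range (N + 1), c x * B ^ x =
        c 0 + B * ∑ x ∈ Finset.range N, c (x + 1) * B ^ x := by
      rw [Finset.sum_range_succ', Finset.mul_sum, pow_zero, mul_one, add_comm]
      congr 1
      exact Finset.sum_congr rfl fun x _ => by ring
    rw [hsum]
    match e with
    | 0 => rw [pow_zero, Nat.div_one, Nat.add_mul_mod_self_left, Nat.mod_eq_of_lt h0]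
    | e + 1 =>
      rw [pow_succ', ← Nat.div_div_eq_div_mul, Nat.add_mul_div_left _ _ (by omega),
        Nat.div_eq_of_lt h0, zero_add]
      exact digit_sum B N (fun x => c (x + 1)) (fun x hx => hc (x + 1) (by omega)) e (by omega)

/-- Counting by packing. -/
theorem packed_count {I : Type*} [Fintype I] (g : I → ℕ) {N B e : ℕ} (hg : ∀ i, g i < N)
    (hB : Fintype.card I < B) (he : e < N) :
    (∑ i, B ^ g i) / B ^ e % B = (Finset.univ.filter fun i => g i = e).card := by
  classical
  rw [← digit_sum B N (fun x => (Finset.univ.filter fun i => g i = x).card)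
    (fun x _ => lt_of_le_of_lt (Finset.card_le_univ _) hB) e he]
  congr 2
  rw [← Finset.sum_fiberwise_of_maps_to (t := Finset.range N) (g := g)
    (fun i _ => Finset.mem_range.mpr (hg i))]
  refine Finset.sum_congr rfl fun x _ => ?_
  rw [Finset.sum_congr rfl fun i hi => by rw [(Finset.mem_filter.mp hi).2], Finset.sum_const,
    smul_eq_mul]

/-- The counts of the classes of an element of order seventy-three. -/
theorem exists_target {A B : ℕ} (hA : A < 73) (hB : B < 73) (h0 : A ≠ 0 ∨ B ≠ 0) :
    ∃ t ∈ targets73, t = reps73.map (expCount A B) := by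
  classical
  haveI : Fact (Nat.Prime 73) := ⟨by norm_num⟩
  obtain ⟨u, v, μ, hq, hμ, hscale⟩ : ∃ u v μ : ℕ,
      (u, v) ∈ (0, 1) :: (List.range 73).map (fun v => (1, v)) ∧ μ < 73 ∧
      μ ≠ 0 ∧ (u : ZMod 73) = μ * A ∧ (v : ZMod 73) = μ * B := by
    have key : ∀ X : ℕ, X < 73 → X ≠ 0 → ((X : ZMod 73)⁻¹).val ≠ 0 := fun X hX hX0 => by
      rw [Ne, ZMod.val_eq_zero, inv_eq_zero, ZMod.natCast_eq_zero_iff]
      exact fun h => hX0 (Nat.eq_zero_of_dvd_of_lt h hX)
    by_cases hA0 : A = 0
    · refine ⟨0, 1, ((B : ZMod 73)⁻¹).val, List.mem_cons_self, ZMod.val_lt _,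
        key B hB (by omega), by simp [hA0], ?_⟩
      rw [ZMod.natCast_rightInverse, Nat.cast_one, inv_mul_cancel₀]
      rw [Ne, ZMod.natCast_eq_zero_iff]
      exact fun h => h0.resolve_left (by omega) (Nat.eq_zero_of_dvd_of_lt h hB)
    · refine ⟨1, ((A : ZMod 73)⁻¹ * B).val, ((A : ZMod 73)⁻¹).val,
        List.mem_cons_of_mem _ (List.mem_map.mpr ⟨_, List.mem_range.mpr (ZMod.val_lt _), rfl⟩),
        ZMod.val_lt _, key A hA hA0, ?_, ?_⟩
      · rw [ZMod.natCast_rightInverse, Nat.cast_one, inv_mul_cancel₀]
        rw [Ne, ZMod.natCast_eq_zero_iff]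
        exact fun h => hA0 (Nat.eq_zero_of_dvd_of_lt h hA)
      · rw [ZMod.natCast_rightInverse, ZMod.natCast_rightInverse]
  obtain ⟨hμ0, hu, hv⟩ := hscale
  have h := tally_mem
  simp only [List.all_eq_true, List.mem_range, List.elem_iff] at h
  have hmem := h (u, v) hq (μ - 1) (by omega)
  rw [show μ - 1 + 1 = μ by omega] at hmem
  refine ⟨_, hmem, ?_⟩
  have htally : tally u v = ∑ r : Fin chevE8.nroots, 256 ^ rexp u v r := by
    show _ = ∑ r : Fin 240, 256 ^ rexp u v r.val
    rw [tally, ← pairs_eq, List.map_map, ← List.sum_toFinset _ List.nodup_range,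
      List.toFinset_range, Finset.sum_range]
    exact Finset.sum_congr rfl fun r _ => by simp only [Function.comp_apply, rexp]
  rw [scaledCounts, show reps73 = (List.range 7).map (fun k => reps73.getD k 0) by decide]
  rw [List.map_map]
  refine List.map_congr_left fun k hk => ?_
  have hlen : ∀ k < 7, reps73.getD k 0 < 73 ∧ (reps73.getD k 0 = 0 ↔ k = 0) := by decide
  obtain ⟨hj, hj0⟩ := hlen k (List.mem_range.mp hk)
  rw [show ((List.range 7).map (fun k => reps73.getD k 0)).getD k 0 = reps73.getD k 0 from
    congrArg (fun l : List ℕ => l.getD k 0) (show _ = reps73 by decide)]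
  simp only [Function.comp_apply]
  set j := reps73.getD k 0
  rw [htally, packed_count (fun r : Fin chevE8.nroots => rexp u v r)
    (fun r => Nat.mod_lt _ (by norm_num)) (by simp [show chevE8.nroots = 240 from rfl])
    (Nat.mod_lt _ (by norm_num : 0 < 73)), expCount]
  have hsplit : (Finset.univ.filter fun i : chevE8.Idx => iexp A B i = j) =
      (Finset.univ.filter fun i : Fin chevE8.rank => j = 0).map Function.Embedding.inl ∪
        (Finset.univ.filter fun r : Fin chevE8.nroots => rexp A B r = j).map
          Function.Embedding.inr := by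
    ext i
    rw [Finset.mem_filter, Finset.mem_union, Finset.mem_map, Finset.mem_map]
    rcases i with i | r
    · by_cases hz : 0 = j <;> simp [iexp, hz, eq_comm]
    · simp [iexp]
  have hdisj : Disjoint
      ((Finset.univ.filter fun i : Fin chevE8.rank => j = 0).map (Function.Embedding.inl (β := Fin chevE8.nroots)))
      ((Finset.univ.filter fun r : Fin chevE8.nroots => rexp A B r = j).map Function.Embedding.inr) := by
    simp [Finset.disjoint_left]
  rw [hsplit, Finset.card_union_of_disjoint hdisj, Finset.card_map, Finset.card_map]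
  have hroots : (Finset.univ.filter fun r : Fin chevE8.nroots => rexp u v r = μ * j % 73) =
      (Finset.univ.filter fun r : Fin chevE8.nroots => rexp A B r = j) := by
    refine Finset.filter_congr fun r _ => ?_
    have e1 : rexp u v r = μ * j % 73 ↔ (rexp u v r : ZMod 73) = ((μ * j % 73 : ℕ) : ZMod 73) := by
      rw [ZMod.natCast_eq_natCast_iff', Nat.mod_mod, rexp, Nat.mod_mod]
    have e2 : rexp A B r = j ↔ (rexp A B r : ZMod 73) = (j : ZMod 73) := by
      rw [ZMod.natCast_eq_natCast_iff', rexp, Nat.mod_mod, Nat.mod_eq_of_lt hj]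
    rw [e1, e2, rexp, rexp, ZMod.natCast_mod, ZMod.natCast_mod, ZMod.natCast_mod]
    push_cast
    rw [hu, hv, mul_assoc, mul_assoc, ← mul_add]
    constructor
    · intro h
      refine mul_left_cancel₀ ?_ h
      rw [Ne, ZMod.natCast_eq_zero_iff]
      exact fun hd => hμ0 (Nat.eq_zero_of_dvd_of_lt hd hμ)
    · intro h; rw [h]
  rw [hroots, add_comm]
  refine congrArg (fun z => z + _) ?_
  by_cases hk0 : k = 0
  · simp [hk0, hj0.mpr hk0, show chevE8.rank = 8 from rfl]
  · simp [hk0, mt hj0.mp hk0]

end CfsgLib.E8PSLThree56
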