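import Mathlib
import Cfsg.Agent.ChevTori.Main

/-!
The rational points of a twisted torus inside the finite Chevalley group.
-/

set_option autoImplicit false

namespace CfsgLib.E8PSLThree56

open Cfsg.Lie CfsgLib.Chevalley CfsgLib.ChevSteinberg CfsgLib.ChevField CfsgLib.ChevTori

/-- The fixed points of a twisted torus are conjugate over the closure to elements of the finite group. -/
theorem twisted_points {D : ChevalleyDatum} (S : Sys D) (W : Witness S) {F : Type*} [Field F] [Fintype F]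
    (L : List (Fin D.rank)) (K : Type*) [Field K] [IsAlgClosed K] [Algebra F K]
    (hinj : Function.Injective ((groupSys S K).torHom (groupSys_mulH S K) W)) :
    ∃ g ∈ D.group K, ∀ c : Fin D.rank → Kˣ, matAct (wMat D L) (c ^ Fintype.card F) = c →
      ∃ h : ↥(D.group F),
        gmap D (algebraMap F K) (h : GL D.Idx F) = g * StSys.torF D K c * g⁻¹ := by
  let f : F →+* K := algebraMap F K
  obtain ⟨φ, hφ, hφfix⟩ := exists_frobenius F K
  have hq2 : 2 ≤ Fintype.card F := Fintype.one_lt_card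
  have hφf : ∀ x, φ (f x) = f x := fun x => by rw [hφ, ← map_pow, FiniteField.pow_card]
  set T := groupSys S K
  set τ := T.torHom (groupSys_mulH S K) W
  have hy : ((S.wN K L : ↥(D.monomialSubgroup K)) : GL D.Idx K) ∈ D.group K :=
    S.monomial_le_group K (S.wN K L).2
  obtain ⟨g, hg, hgy⟩ := exists_lang S hq2 φ hφ hy
  obtain ⟨gs, hgs⟩ := groupProj_surjective S K ⟨g, hg⟩
  have hgs' : T.θ gs = g := congrArg Subtype.val hgs
  have hker : T.θ (gs⁻¹ * stMap D φ gs * (T.wT L)⁻¹) = 1 := by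
    rw [map_mul, map_mul, map_inv, map_inv, θ_stMap, T.θ_wT, hgs', hgy, mul_inv_cancel]
  obtain ⟨d0, hd0⟩ := T.HT_le_range (groupSys_mulH S K) W (T.ker_le_HT W (group_gen S K) hker)
  set n := τ d0 * T.wT L with hn
  have hng : stMap D φ gs = gs * n := by
    rw [hn, show τ d0 = _ from hd0]; group
  have hnconj : ∀ c, n * τ c * n⁻¹ = τ (matAct (wMat D L) c) := by
    intro c
    calc n * τ c * n⁻¹ = τ d0 * (T.wT L * τ c * (T.wT L)⁻¹) * (τ d0)⁻¹ := by
          rw [hn]; group
      _ = τ d0 * τ (matAct (wMat D L) c) * (τ d0)⁻¹ := by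
          rw [wT_conj_torHom T (groupSys_mulH S K) W]
      _ = _ := by rw [← map_inv, ← map_mul, ← map_mul, mul_comm d0, mul_inv_cancel_right]
  have hΦτ : ∀ c, stMap D φ (τ c) = τ (c ^ Fintype.card F) := by
    intro c
    rw [stMap_torHom S]
    refine congrArg τ (funext fun i => Units.ext ?_)
    simpa using hφ (c i : K)
  refine ⟨g, hg, fun c hc => ?_⟩
  have hΦ : stMap D φ (gs * τ c * gs⁻¹) = gs * τ c * gs⁻¹ := by
    calc stMap D φ (gs * τ c * gs⁻¹) = gs * n * τ (c ^ Fintype.card F) * (gs * n)⁻¹ := by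
          rw [map_mul, map_mul, map_inv, hΦτ, hng]
      _ = gs * (n * τ (c ^ Fintype.card F) * n⁻¹) * gs⁻¹ := by group
      _ = _ := by rw [hnconj, hc]
  obtain ⟨x0, hx0⟩ := exists_of_stMap_eq S f W φ hφf hφfix hinj (x := gs * τ c * gs⁻¹) hΦ
  refine ⟨groupProj S F x0, ?_⟩
  show gmap D f ((groupSys S F).θ x0) = _
  rw [← θ_stMap, hx0, map_mul, map_mul, map_inv, hgs', ← T.θ_comp_torHom (groupSys_mulH S K) W]
  rfl

end CfsgLib.E8PSLThree56
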